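import Cfsg.Agent.Lib.ZJ.QdStable

/-!
# Two quadratic elements: a central element inverting a vector

If `a, b` act quadratically on a finite `𝔽_p`-module, `p` odd, and do not generate a `p`-group in their
action, then `⟨a, b⟩` contains an element which commutes with `a` in the action and inverts a nonzero
vector.  The point: for `g ∈ ⟨a, b⟩` the element `g + g⁻¹` commutes with `a` and `b`, hence so does
every `g` acting as an involution.
-/

set_option autoImplicit false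
set_option linter.unusedSectionVars false
set_option linter.unusedVariables false
set_option linter.style.haveILetI false
set_option linter.unusedSimpArgs false

open scoped MatrixGroups commutatorElement

namespace Cfsg.Agent.Lib.ZJ.InvCentral

open Cfsg Cfsg.Agent.Lib.ZJ.Plane Cfsg.Agent.Lib.QuadAct.ThmA Cfsg.Agent.Lib.QuadAct.ThmAx
open Cfsg.Agent.Lib.ZJ.DicksonPair Cfsg.Agent.Lib.QuadAct.Basic Cfsg.Agent.Lib.ZJ.QdStable

universe u v w

section algebra

variable {R : Type*} [Ring R]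

/-- The pairs `(x, x̄)`, for the standard involution of the Clifford algebra generated by `α, β`. -/
def IsPair (α β x x' : R) : Prop :=
  ∃ r₀ r₁ r₂ r₃ : R, (Commute r₀ α ∧ Commute r₀ β) ∧ (Commute r₁ α ∧ Commute r₁ β) ∧
    (Commute r₂ α ∧ Commute r₂ β) ∧ (Commute r₃ α ∧ Commute r₃ β) ∧
    x = r₀ + r₁ * α + r₂ * β + r₃ * (α * β) ∧ x' = r₀ - r₁ * α - r₂ * β + r₃ * (β * α)

variable {α β : R}

lemma IsPair.one : IsPair α β (1 : R) 1 :=
  ⟨1, 0, 0, 0, ⟨Commute.one_left _, Commute.one_left _⟩, ⟨Commute.zero_left _, Commute.zero_left _⟩,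
    ⟨Commute.zero_left _, Commute.zero_left _⟩, ⟨Commute.zero_left _, Commute.zero_left _⟩,
    by simp, by simp⟩

lemma IsPair.add {x x' y y' : R} (h1 : IsPair α β x x') (h2 : IsPair α β y y') :
    IsPair α β (x + y) (x' + y') := by
  obtain ⟨r₀, r₁, r₂, r₃, h0, hh1, hh2, hh3, rfl, rfl⟩ := h1
  obtain ⟨s₀, s₁, s₂, s₃, k0, k1, k2, k3, rfl, rfl⟩ := h2
  refine ⟨r₀ + s₀, r₁ + s₁, r₂ + s₂, r₃ + s₃, ⟨h0.1.add_left k0.1, h0.2.add_left k0.2⟩,
    ⟨hh1.1.add_left k1.1, hh1.2.add_left k1.2⟩, ⟨hh2.1.add_left k2.1, hh2.2.add_left k2.2⟩,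
    ⟨hh3.1.add_left k3.1, hh3.2.add_left k3.2⟩, by noncomm_ring, by noncomm_ring⟩

lemma IsPair.neg {x x' : R} (h1 : IsPair α β x x') : IsPair α β (-x) (-x') := by
  obtain ⟨r₀, r₁, r₂, r₃, h0, hh1, hh2, hh3, rfl, rfl⟩ := h1
  refine ⟨-r₀, -r₁, -r₂, -r₃, ⟨h0.1.neg_left, h0.2.neg_left⟩,
    ⟨hh1.1.neg_left, hh1.2.neg_left⟩, ⟨hh2.1.neg_left, hh2.2.neg_left⟩,
    ⟨hh3.1.neg_left, hh3.2.neg_left⟩, by noncomm_ring, by noncomm_ring⟩

lemma IsPair.step_left (hα : α * α = 0) {x x' : R} (h1 : IsPair α β x x') :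
    IsPair α β (α * x) (-(x' * α)) := by
  obtain ⟨r₀, r₁, r₂, r₃, h0, hh1, hh2, hh3, rfl, rfl⟩ := h1
  refine ⟨0, r₀, 0, r₂, ⟨Commute.zero_left _, Commute.zero_left _⟩, h0,
    ⟨Commute.zero_left _, Commute.zero_left _⟩, hh2, ?_, ?_⟩
  · have e0 : α * r₀ = r₀ * α := h0.1.eq.symm
    have e1 : α * r₁ = r₁ * α := hh1.1.eq.symm
    have e2 : α * r₂ = r₂ * α := hh2.1.eq.symm
    have e3 : α * r₃ = r₃ * α := hh3.1.eq.symm
    calc α * (r₀ + r₁ * α + r₂ * β + r₃ * (α * β))
        = (α * r₀) + (α * r₁) * α + (α * r₂) * β + (α * r₃) * (α * β) := by noncomm_ring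
      _ = r₀ * α + r₁ * (α * α) + r₂ * (α * β) + r₃ * ((α * α) * β) := by
          rw [e0, e1, e2, e3]; noncomm_ring
      _ = 0 + r₀ * α + 0 * β + r₂ * (α * β) := by rw [hα]; noncomm_ring
  · calc -((r₀ - r₁ * α - r₂ * β + r₃ * (β * α)) * α)
        = - (r₀ * α) + r₁ * (α * α) + r₂ * (β * α) - r₃ * (β * (α * α)) := by noncomm_ring
      _ = 0 - r₀ * α - 0 * β + r₂ * (β * α) := by rw [hα]; noncomm_ring

lemma IsPair.step_right (hα : α * α = 0) (hβ : β * β = 0) {x x' : R} (h1 : IsPair α β x x') :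
    IsPair α β (β * x) (-(x' * β)) := by
  obtain ⟨r₀, r₁, r₂, r₃, h0, hh1, hh2, hh3, rfl, rfl⟩ := h1
  have hωα : Commute (α * β + β * α) α := by
    show (α * β + β * α) * α = α * (α * β + β * α)
    calc (α * β + β * α) * α = α * β * α + β * (α * α) := by noncomm_ring
      _ = (α * α) * β + α * β * α := by rw [hα]; noncomm_ring
      _ = α * (α * β + β * α) := by noncomm_ring
  have hωβ : Commute (α * β + β * α) β := by
    show (α * β + β * α) * β = β * (α * β + β * α)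
    calc (α * β + β * α) * β = α * (β * β) + β * α * β := by noncomm_ring
      _ = β * α * β + (β * β) * α := by rw [hβ]; noncomm_ring
      _ = β * (α * β + β * α) := by noncomm_ring
  refine ⟨r₁ * (α * β + β * α), 0, r₀ + r₃ * (α * β + β * α), -r₁,
    ⟨hh1.1.mul_left hωα, hh1.2.mul_left hωβ⟩, ⟨Commute.zero_left _, Commute.zero_left _⟩,
    ⟨h0.1.add_left (hh3.1.mul_left hωα), h0.2.add_left (hh3.2.mul_left hωβ)⟩,
    ⟨hh1.1.neg_left, hh1.2.neg_left⟩, ?_, ?_⟩
  · have e0 : β * r₀ = r₀ * β := h0.2.eq.symm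
    have e1 : β * r₁ = r₁ * β := hh1.2.eq.symm
    have e2 : β * r₂ = r₂ * β := hh2.2.eq.symm
    have e3 : β * r₃ = r₃ * β := hh3.2.eq.symm
    calc β * (r₀ + r₁ * α + r₂ * β + r₃ * (α * β))
        = (β * r₀) + (β * r₁) * α + (β * r₂) * β + (β * r₃) * (α * β) := by noncomm_ring
      _ = r₀ * β + r₁ * (β * α) + r₂ * (β * β) + r₃ * (β * α * β) := by
          rw [e0, e1, e2, e3]; noncomm_ring
      _ = r₀ * β + r₁ * (β * α) + r₃ * (β * α * β) + r₃ * (α * (β * β)) := by rw [hβ]; noncomm_ring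
      _ = r₁ * (α * β + β * α) + 0 * α + (r₀ + r₃ * (α * β + β * α)) * β + -r₁ * (α * β) := by
          noncomm_ring
  · calc -((r₀ - r₁ * α - r₂ * β + r₃ * (β * α)) * β)
        = - (r₀ * β) + r₁ * (α * β) + r₂ * (β * β) - r₃ * (β * α * β) := by noncomm_ring
      _ = - (r₀ * β) + r₁ * (α * β) - r₃ * (β * α * β) - r₃ * (α * (β * β)) := by
          rw [hβ]; noncomm_ring
      _ = r₁ * (α * β + β * α) - 0 * α - (r₀ + r₃ * (α * β + β * α)) * β + -r₁ * (β * α) := by
          noncomm_ring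

/-- The sum `x + x̄` commutes with `α` (and `β`). -/
lemma IsPair.commute_add (hα : α * α = 0) (hβ : β * β = 0) {x x' : R} (h1 : IsPair α β x x') :
    Commute (x + x') α := by
  obtain ⟨r₀, r₁, r₂, r₃, h0, hh1, hh2, hh3, rfl, rfl⟩ := h1
  have hωα : Commute (α * β + β * α) α := by
    show (α * β + β * α) * α = α * (α * β + β * α)
    calc (α * β + β * α) * α = α * β * α + β * (α * α) := by noncomm_ring
      _ = (α * α) * β + α * β * α := by rw [hα]; noncomm_ring
      _ = α * (α * β + β * α) := by noncomm_ring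
  have e : r₀ + r₁ * α + r₂ * β + r₃ * (α * β) + (r₀ - r₁ * α - r₂ * β + r₃ * (β * α)) =
      r₀ + r₀ + r₃ * (α * β + β * α) := by noncomm_ring
  rw [e]
  exact (h0.1.add_left h0.1).add_left (hh3.1.mul_left hωα)

variable {Γ : Type*} [Group Γ]

/-- For `g ∈ ⟨a, b⟩`, the pair `(g, g⁻¹)` has the Clifford shape. -/
lemma isPair_of_mem (ρ : Γ →* R) {a b : Γ} (hα : (ρ a - 1) * (ρ a - 1) = 0)
    (hβ : (ρ b - 1) * (ρ b - 1) = 0) {g : Γ} (hg : g ∈ Subgroup.closure {a, b}) :
    IsPair (ρ a - 1) (ρ b - 1) (ρ g) (ρ g⁻¹) := by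
  set α := ρ a - 1 with hαd
  set β := ρ b - 1 with hβd
  have hae : ρ a = 1 + α := by rw [hαd]; noncomm_ring
  have hbe : ρ b = 1 + β := by rw [hβd]; noncomm_ring
  have haie : ρ a⁻¹ = 1 - α := by
    have h1 : ρ a⁻¹ * ρ a = 1 := by rw [← map_mul]; simp
    have h2 : (1 + α) * (1 - α) = 1 := by
      calc (1 + α) * (1 - α) = 1 - α * α := by noncomm_ring
        _ = 1 := by rw [hα, sub_zero]
    calc ρ a⁻¹ = ρ a⁻¹ * ((1 + α) * (1 - α)) := by rw [h2, mul_one]
      _ = (ρ a⁻¹ * ρ a) * (1 - α) := by rw [hae]; noncomm_ring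
      _ = 1 - α := by rw [h1, one_mul]
  have hbie : ρ b⁻¹ = 1 - β := by
    have h1 : ρ b⁻¹ * ρ b = 1 := by rw [← map_mul]; simp
    have h2 : (1 + β) * (1 - β) = 1 := by
      calc (1 + β) * (1 - β) = 1 - β * β := by noncomm_ring
        _ = 1 := by rw [hβ, sub_zero]
    calc ρ b⁻¹ = ρ b⁻¹ * ((1 + β) * (1 - β)) := by rw [h2, mul_one]
      _ = (ρ b⁻¹ * ρ b) * (1 - β) := by rw [hbe]; noncomm_ring
      _ = 1 - β := by rw [h1, one_mul]
  induction hg using Subgroup.closure_induction_left with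
  | one => simpa using IsPair.one
  | mul_left x hx y _ ih =>
    rcases hx with rfl | rfl
    · have e1 : ρ (x * y) = ρ y + α * ρ y := by
        rw [map_mul, hae]; noncomm_ring
      have e2 : ρ (x * y)⁻¹ = ρ y⁻¹ + -(ρ y⁻¹ * α) := by
        rw [mul_inv_rev, map_mul, haie]; noncomm_ring
      rw [e1, e2]
      exact ih.add (ih.step_left hα)
    · have e1 : ρ (x * y) = ρ y + β * ρ y := by
        rw [map_mul, hbe]; noncomm_ring
      have e2 : ρ (x * y)⁻¹ = ρ y⁻¹ + -(ρ y⁻¹ * β) := by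
        rw [mul_inv_rev, map_mul, hbie]; noncomm_ring
      rw [e1, e2]
      exact ih.add (ih.step_right hα hβ)
  | inv_mul_cancel x hx y _ ih =>
    rcases hx with rfl | rfl
    · have e1 : ρ (x⁻¹ * y) = ρ y + -(α * ρ y) := by
        rw [map_mul, haie]; noncomm_ring
      have e2 : ρ (x⁻¹ * y)⁻¹ = ρ y⁻¹ + -(-(ρ y⁻¹ * α)) := by
        rw [mul_inv_rev, map_mul, inv_inv, hae]; noncomm_ring
      rw [e1, e2]
      exact ih.add (ih.step_left hα).neg
    · have e1 : ρ (x⁻¹ * y) = ρ y + -(β * ρ y) := by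
        rw [map_mul, hbie]; noncomm_ring
      have e2 : ρ (x⁻¹ * y)⁻¹ = ρ y⁻¹ + -(-(ρ y⁻¹ * β)) := by
        rw [mul_inv_rev, map_mul, inv_inv, hbe]; noncomm_ring
      rw [e1, e2]
      exact ih.add (ih.step_right hα hβ).neg

end algebra

variable {p : ℕ} [hpf : Fact p.Prime]

local notation "Zp" => ZMod p

/-- **The central inverting element.** -/
theorem exists_central_inverting (hp : p ≠ 2) {Γ : Type w} [Group Γ] {M : Type v} [AddCommGroup M]
    [Module (ZMod p) M] [Finite M] (ρ : Γ →* Module.End (ZMod p) M) {a b : Γ}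
    (ha : Quad (ρ a)) (hb : Quad (ρ b)) (hc : ¬ IsNilpotent ((ρ a - 1) * (ρ b - 1))) :
    ∃ τ ∈ Subgroup.closure {a, b}, ρ τ * ρ a = ρ a * ρ τ ∧ ∃ v : M, v ≠ 0 ∧ ρ τ v = -v := by
  classical
  have hα : (ρ a - 1) * (ρ a - 1) = 0 := quad_iff.1 ha
  have hβ : (ρ b - 1) * (ρ b - 1) = 0 := quad_iff.1 hb
  have h2 : (2 : Zp) ≠ 0 := by
    intro h
    have h3 : ((2 : ℕ) : Zp) = 0 := by exact_mod_cast h
    rw [ZMod.natCast_eq_zero_iff] at h3
    exact hp ((Nat.prime_dvd_prime_iff_eq Fact.out Nat.prime_two).1 h3)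
  obtain ⟨x, hx, y, hy, v, w, hv0, hxv, hxw, hyv, hyw⟩ := exists_plane hp ρ ha hb hc
  set h := (x * y) ^ 2 with hh
  have hcl : h ∈ Subgroup.closure {a, b} := Subgroup.pow_mem _ (Subgroup.mul_mem _ hx hy) _
  have hv1 : ρ (x * y) v = w - v := by
    rw [map_mul, Module.End.mul_apply, hyv, map_add, hxv, hxw, two_smul]
    abel
  have hv2 : ρ (x * y) (w - v) = -v := by
    rw [map_mul, Module.End.mul_apply, map_sub, hyv, hyw, add_comm v w, sub_add_cancel_left, map_neg,
      hxv]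
  have hhv : ρ h v = -v := by
    rw [hh, pow_two, map_mul, Module.End.mul_apply, hv1, hv2]
  haveI : Finite (Module.End (ZMod p) M) :=
    Finite.of_injective (fun f : Module.End (ZMod p) M => (f : M → M)) DFunLike.coe_injective
  let u := ρ.toHomUnits h
  have hu : ∀ n : ℕ, ((u ^ n : (Module.End (ZMod p) M)ˣ) : Module.End (ZMod p) M) = ρ (h ^ n) := by
    intro n
    rw [Units.val_pow_eq_pow_val, map_pow]
    rfl
  have hpos : 0 < orderOf u := orderOf_pos u
  have hpow : ρ (h ^ orderOf u) = 1 := by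
    rw [← hu, pow_orderOf_eq_one]
    rfl
  have hvpow : ∀ n : ℕ, ρ (h ^ n) v = (-1 : Zp) ^ n • v := by
    intro n
    induction n with
    | zero => simp
    | succ n ih =>
      rw [pow_succ, map_mul, Module.End.mul_apply, hhv, map_neg, ih, pow_succ]
      simp
  have heven : Even (orderOf u) := by
    by_contra hodd
    rw [Nat.not_even_iff_odd] at hodd
    have h3 := hvpow (orderOf u)
    rw [hpow, hodd.neg_one_pow] at h3
    have h4 : v = -v := by simpa using h3
    have h5 : (2 : Zp) • v = 0 := by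
      rw [two_smul]
      nth_rw 1 [h4]
      simp
    rcases smul_eq_zero.1 h5 with h6 | h6
    · exact h2 h6
    · exact hv0 h6
  obtain ⟨k, hk⟩ := heven
  have hkpos : 0 < k := by omega
  have hklt : k < orderOf u := by omega
  set τ := h ^ k with hτ
  have hτ1 : ρ τ ≠ 1 := by
    intro h1
    apply pow_ne_one_of_lt_orderOf hkpos.ne' hklt
    apply Units.ext
    rw [hu, h1]
    rfl
  have hτ2 : ρ τ * ρ τ = 1 := by
    rw [← map_mul, hτ, ← pow_add, ← hk, hpow]
  have hτinv : ρ τ⁻¹ = ρ τ := by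
    have h1 : ρ τ⁻¹ * ρ τ = 1 := by rw [← map_mul]; simp
    calc ρ τ⁻¹ = ρ τ⁻¹ * (ρ τ * ρ τ) := by rw [hτ2, mul_one]
      _ = (ρ τ⁻¹ * ρ τ) * ρ τ := by rw [mul_assoc]
      _ = ρ τ := by rw [h1, one_mul]
  have hτcl : τ ∈ Subgroup.closure {a, b} := Subgroup.pow_mem _ hcl _
  have hpair := isPair_of_mem ρ hα hβ hτcl
  have hcomm := hpair.commute_add hα hβ
  rw [hτinv] at hcomm
  have hcomm2 : Commute (ρ τ) (ρ a - 1) := by
    have e : ρ τ = (2 : Zp)⁻¹ • (ρ τ + ρ τ) := by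
      rw [← two_smul (ZMod p), smul_smul, inv_mul_cancel₀ h2, one_smul]
    rw [e]
    exact hcomm.smul_left _
  refine ⟨τ, hτcl, ?_, ?_⟩
  · have h3 : ρ a = 1 + (ρ a - 1) := by noncomm_ring
    rw [h3]
    exact ((Commute.one_right _).add_right hcomm2).eq
  · have : ∃ u₀ : M, ρ τ u₀ ≠ u₀ := by
      by_contra hcon
      push Not at hcon
      apply hτ1
      ext m
      simpa using hcon m
    obtain ⟨u₀, hu₀⟩ := this
    refine ⟨u₀ - ρ τ u₀, ?_, ?_⟩
    · intro h0
      exact hu₀ (sub_eq_zero.1 h0).symm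
    · have h3 : ρ τ (ρ τ u₀) = u₀ := by
        have := congrArg (fun f : Module.End (ZMod p) M => f u₀) hτ2
        simpa using this
      rw [map_sub, h3]
      abel

section abstract

variable {X : Type u} [Group X] [Finite X]

/-- The form for an action on an abelian group. -/
theorem inverting_abstract_aux {A : Type u} [CommGroup A] [Module (ZMod p) (Additive A)] [Finite A]
    (hp : p ≠ 2) (f : X →* MulAut A) (a b : X)
    (ha : ∀ x : A, f a (f a x * x⁻¹) = f a x * x⁻¹)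
    (hb : ∀ x : A, f b (f b x * x⁻¹) = f b x * x⁻¹)
    (hnp : ¬ ∀ g ∈ Subgroup.closure {a, b}, ∃ m : ℕ, f (g ^ p ^ m) = 1) :
    ∃ τ ∈ Subgroup.closure {a, b}, f τ * f a = f a * f τ ∧ ∃ v : A, v ≠ 1 ∧ f τ v = v⁻¹ := by
  classical
  obtain ⟨ρ, hρ, hQ⟩ : ∃ ρ : X →* Module.End (ZMod p) (Additive A),
      (∀ (g : X) (x : Additive A), ρ g x = Additive.ofMul (f g (Additive.toMul x))) ∧
      ∀ g : X, (∀ v : A, f g (f g v * v⁻¹) = f g v * v⁻¹) → Quad (ρ g) := by
    let ρ₀ : X → Module.End (ZMod p) (Additive A) := fun g =>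
      AddMonoidHom.toZModLinearMap p (MonoidHom.toAdditive ((f g).toMonoidHom))
    have h₀ : ∀ (g : X) (x : Additive A), ρ₀ g x = Additive.ofMul (f g (Additive.toMul x)) :=
      fun _ _ => rfl
    let ρ : X →* Module.End (ZMod p) (Additive A) :=
      { toFun := ρ₀
        map_one' := by
          apply LinearMap.ext
          intro x
          rw [h₀, map_one]
          rfl
        map_mul' := by
          intro g h
          apply LinearMap.ext
          intro x
          rw [h₀, map_mul]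
          rfl }
    have hρ : ∀ (g : X) (x : Additive A), ρ g x = Additive.ofMul (f g (Additive.toMul x)) :=
      fun _ _ => rfl
    refine ⟨ρ, hρ, ?_⟩
    intro g hg w
    have := hg (Additive.toMul w)
    rw [hρ, hρ]
    apply Additive.toMul.injective
    simpa [hρ, sub_eq_add_neg] using this
  have hqa : Quad (ρ a) := hQ a ha
  have hqb : Quad (ρ b) := hQ b hb
  haveI : Finite (Additive A) := inferInstanceAs (Finite A)
  haveI : Module.Finite (ZMod p) (Additive A) := Module.Finite.of_finite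
  have hc : ¬ IsNilpotent ((ρ a - 1) * (ρ b - 1)) := by
    intro hnil
    set Γ := Subgroup.closure {a, b} with hΓ
    have haΓ : a ∈ Γ := Subgroup.subset_closure (by simp)
    have hbΓ : b ∈ Γ := Subgroup.subset_closure (by simp)
    have hgen := Cfsg.Agent.Lib.QuadAct.TwoGen.closure_pair_eq_top hΓ haΓ hbΓ
    have := pg_of_nilpotent (p := p) hgen _ (Additive A) (ρ.comp Γ.subtype) rfl hqa hqb hnil
    apply hnp
    intro g hg
    obtain ⟨m, hm⟩ := this ⟨g, hg⟩
    refine ⟨m, ?_⟩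
    ext x
    have h1 := congrArg (fun u : Module.End (ZMod p) (Additive A) => u (Additive.ofMul x)) hm
    simp only [MonoidHom.comp_apply, Subgroup.subtype_apply, Subgroup.coe_pow] at h1
    rw [hρ] at h1
    exact Additive.ofMul.injective h1
  obtain ⟨τ, hτ, hτa, v, hv, hτv⟩ := exists_central_inverting hp ρ hqa hqb hc
  refine ⟨τ, hτ, ?_, Additive.toMul v, hv, ?_⟩
  · ext x
    have h1 := congrArg (fun u : Module.End (ZMod p) (Additive A) => u (Additive.ofMul x)) hτa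
    simp only [Module.End.mul_apply, hρ] at h1
    exact Additive.ofMul.injective h1
  · have h1 := hτv
    rw [hρ] at h1
    exact Additive.ofMul.injective h1

/-- The form for a normal elementary abelian subgroup. -/
theorem exists_inverting_of_quadratic_pair (hp : p ≠ 2) (V : Subgroup X) [hVn : V.Normal]
    (hV : Cfsg.IsElementaryAbelian p V) (a b : X)
    (ha : ∀ v ∈ V, ⁅⁅v, a⁆, a⁆ = 1) (hb : ∀ v ∈ V, ⁅⁅v, b⁆, b⁆ = 1)
    (hnp : ¬ ∀ g ∈ Subgroup.closure {a, b}, ∃ m : ℕ,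
      g ^ p ^ m ∈ Subgroup.centralizer (V : Set X)) :
    ∃ τ ∈ Subgroup.closure {a, b}, (∀ v ∈ V, τ * (a * v * a⁻¹) * τ⁻¹ = a * (τ * v * τ⁻¹) * a⁻¹) ∧
      ∃ v ∈ V, v ≠ 1 ∧ τ * v * τ⁻¹ = v⁻¹ := by
  have hcomm : ∀ x y : V, x * y = y * x := fun x y =>
    Subtype.ext (comm_of_isMulCommutative hV.1 x.2 y.2)
  have hexp : ∀ x : V, x ^ p = 1 := fun x => Subtype.ext (hV.2 x x.2)
  let f : X →* MulAut V := MulAut.conjNormal
  have hf : ∀ (g : X) (v : V), ((f g v : V) : X) = g * v * g⁻¹ := fun g v => by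
    show ((MulAut.conjNormal g v : V) : X) = _
    rw [MulAut.conjNormal_apply]
  have hq : ∀ c : X, (∀ v ∈ V, ⁅⁅v, c⁆, c⁆ = 1) → ∀ v : V, f c (f c v * v⁻¹) = f c v * v⁻¹ := by
    intro c hc v
    apply Subtype.ext
    have h1 := Cfsg.Agent.Lib.QuadAct.PStable.conj_quad_aux c (v : X) (hc v v.2)
    have e : ((f c v * v⁻¹ : V) : X) = c * v * c⁻¹ * (v : X)⁻¹ := by
      show ((f c v : V) : X) * (v : X)⁻¹ = _
      rw [hf]
    rw [hf, e]
    exact h1
  letI : CommGroup V := { (inferInstance : Group V) with mul_comm := hcomm }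
  have hexp' : ∀ x : Additive V, p • x = 0 := fun x => hexp (Additive.toMul x)
  letI hmod : Module (ZMod p) (Additive V) := AddCommGroup.zmodModule hexp'
  obtain ⟨τ, hτ, hτa, v, hv, hτv⟩ := inverting_abstract_aux hp f a b (hq a ha) (hq b hb) (by
    intro hall
    apply hnp
    intro g hg
    obtain ⟨m, hm⟩ := hall g hg
    refine ⟨m, Subgroup.mem_centralizer_iff.mpr fun v hv => ?_⟩
    have h1 := congrArg (fun u : MulAut V => ((u ⟨v, hv⟩ : V) : X)) hm
    have h2 : g ^ p ^ m * v * (g ^ p ^ m)⁻¹ = v := (hf _ ⟨v, hv⟩).symm.trans h1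
    calc v * g ^ p ^ m = (g ^ p ^ m * v * (g ^ p ^ m)⁻¹) * g ^ p ^ m := by rw [h2]
      _ = g ^ p ^ m * v := by group)
  refine ⟨τ, hτ, ?_, v, v.2, ?_, ?_⟩
  · intro w hw
    have h1 := congrArg (fun u : MulAut V => ((u ⟨w, hw⟩ : V) : X)) hτa
    simp only [MulAut.mul_apply] at h1
    rw [hf, hf, hf, hf] at h1
    exact h1
  · intro h1
    exact hv (Subtype.ext h1)
  · have h1 := congrArg Subtype.val hτv
    rw [hf] at h1
    exact h1

end abstract

end Cfsg.Agent.Lib.ZJ.InvCentral
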