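import Cfsg.Agent.Lib.ZJ.Reduction
import Mathlib.GroupTheory.Perm.Cycle.Type

/-!
# Groups in which no nonidentity `p`-element is inverted

For `p` odd this class of groups is closed under subgroups and under homomorphic images.
-/

set_option autoImplicit false
set_option linter.unusedSectionVars false
set_option linter.unusedVariables false

namespace Cfsg.Agent.Lib.ZJ.InvFree

open Cfsg Cfsg.Agent.Lib.ZJ.Reduction

universe u v

/-- No nonidentity `p`-element is inverted. -/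
def InvFree (p : ℕ) (X : Type*) [Group X] : Prop :=
  ∀ x g : X, (∃ k : ℕ, x ^ p ^ k = 1) → x ≠ 1 → g * x * g⁻¹ ≠ x⁻¹

/-- The form for a subgroup. -/
def InvFreeS {G : Type*} [Group G] (p : ℕ) (K : Subgroup G) : Prop :=
  ∀ x ∈ K, ∀ g ∈ K, (∃ k : ℕ, x ^ p ^ k = 1) → x ≠ 1 → g * x * g⁻¹ ≠ x⁻¹

section basic

variable {G : Type*} [Group G] {p : ℕ}

lemma invFree_coe_iff {K : Subgroup G} : InvFree p K ↔ InvFreeS p K := by
  constructor
  · intro h x hx g hg hp h1 he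
    refine h ⟨x, hx⟩ ⟨g, hg⟩ ?_ ?_ ?_
    · obtain ⟨k, hk⟩ := hp
      exact ⟨k, Subtype.ext (by simpa using hk)⟩
    · intro h2
      exact h1 (congrArg Subtype.val h2)
    · exact Subtype.ext (by simpa using he)
  · intro h x g hp h1 he
    refine h x x.2 g g.2 ?_ ?_ ?_
    · obtain ⟨k, hk⟩ := hp
      exact ⟨k, by simpa [Subtype.ext_iff] using hk⟩
    · intro h2
      exact h1 (Subtype.ext h2)
    · simpa [Subtype.ext_iff] using he

lemma InvFreeS.mono {K L : Subgroup G} (h : InvFreeS p L) (hKL : K ≤ L) : InvFreeS p K :=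
  fun x hx g hg => h x (hKL hx) g (hKL hg)

lemma InvFreeS.top_iff : InvFreeS p (⊤ : Subgroup G) ↔ InvFree p G :=
  ⟨fun h x g => h x trivial g trivial, fun h x _ g _ => h x g⟩

lemma InvFree.subgroup (h : InvFree p G) (K : Subgroup G) : InvFreeS p K :=
  fun x _ g _ => h x g

lemma InvFreeS.cj {K : Subgroup G} (h : InvFreeS p K) (c : G) : InvFreeS p (cj c K) := by
  intro x hx g hg hxp hx1 he
  rw [mem_cj] at hx hg
  refine h _ hx _ hg ?_ ?_ ?_
  · obtain ⟨k, hk⟩ := hxp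
    refine ⟨k, ?_⟩
    have e : (c⁻¹ * x * c) ^ p ^ k = c⁻¹ * x ^ p ^ k * c := by
      have := conj_pow (a := c⁻¹) (b := x) (i := p ^ k)
      simpa using this
    rw [e, hk]
    group
  · intro h0
    apply hx1
    have : x = c * (c⁻¹ * x * c) * c⁻¹ := by group
    rw [this, h0]
    group
  · calc c⁻¹ * g * c * (c⁻¹ * x * c) * (c⁻¹ * g * c)⁻¹ = c⁻¹ * (g * x * g⁻¹) * c := by group
      _ = c⁻¹ * x⁻¹ * c := by rw [he]
      _ = (c⁻¹ * x * c)⁻¹ := by group

lemma conj_pow_odd {h y : G} (hinv : h * y * h⁻¹ = y⁻¹) {m : ℕ} (hm : Odd m) :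
    h ^ m * y * (h ^ m)⁻¹ = y⁻¹ := by
  obtain ⟨j, rfl⟩ := hm
  have h2 : h * h * y * (h * h)⁻¹ = y := by
    calc h * h * y * (h * h)⁻¹ = h * (h * y * h⁻¹) * h⁻¹ := by group
      _ = h * y⁻¹ * h⁻¹ := by rw [hinv]
      _ = (h * y * h⁻¹)⁻¹ := by group
      _ = y := by rw [hinv]; group
  have h3 : ∀ j : ℕ, h ^ (2 * j) * y * (h ^ (2 * j))⁻¹ = y := by
    intro j
    induction j with
    | zero => simp
    | succ j ih =>
      rw [show 2 * (j + 1) = 2 * j + 2 by ring, pow_add, pow_two]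
      calc h ^ (2 * j) * (h * h) * y * (h ^ (2 * j) * (h * h))⁻¹
          = h ^ (2 * j) * (h * h * y * (h * h)⁻¹) * (h ^ (2 * j))⁻¹ := by group
        _ = y := by rw [h2, ih]
  rw [pow_succ]
  calc h ^ (2 * j) * h * y * (h ^ (2 * j) * h)⁻¹
      = h ^ (2 * j) * (h * y * h⁻¹) * (h ^ (2 * j))⁻¹ := by group
    _ = (h ^ (2 * j) * y * (h ^ (2 * j))⁻¹)⁻¹ := by rw [hinv]; group
    _ = y⁻¹ := by rw [h3]

end basic

section lifting

variable {p : ℕ} [Fact p.Prime]
variable {X : Type u} [Group X] [Finite X] {Y : Type v} [Group Y]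

/-- Inverted `p`-elements lift through surjections, for `p` odd. -/
theorem InvFree.of_surjective (hp : p ≠ 2) (hX : InvFree p X) (f : X →* Y)
    (hf : Function.Surjective f) : InvFree p Y := by
  classical
  intro y h hy hy1 hinv
  obtain ⟨k, hk⟩ := hy
  let P₀ : Subgroup X := (Subgroup.zpowers y).comap f
  obtain ⟨T, hT, -⟩ := exists_sylowIn_ge (p := p) (R := ⊥) (H := P₀) bot_le IsPGroup.of_bot
  have hKle : f.ker ≤ P₀ := by
    intro x hx
    have h1 : f x = 1 := hx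
    show f x ∈ Subgroup.zpowers y
    rw [h1]
    exact one_mem _
  have hNorm : P₀ ≤ NN f.ker := by
    rw [NN_eq_top_iff.2 inferInstance]
    exact le_top
  have hpow : ∀ x ∈ P₀, ∃ m : ℕ, x ^ p ^ m ∈ f.ker := by
    intro x hx
    obtain ⟨i, hi⟩ := Subgroup.mem_zpowers_iff.1 hx
    refine ⟨k, ?_⟩
    rw [MonoidHom.mem_ker, map_pow, ← hi, ← zpow_natCast, ← zpow_mul, mul_comm, zpow_mul,
      zpow_natCast, hk, one_zpow]
  have hcov : ∀ x ∈ P₀, ∃ s ∈ T, ∃ c ∈ f.ker, x = s * c := fun x hx => hT.cov hKle hNorm hpow hx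
  obtain ⟨x₀, rfl⟩ := hf y
  obtain ⟨g₀, rfl⟩ := hf h
  have hx₀ : x₀ ∈ P₀ := Subgroup.mem_zpowers _
  obtain ⟨s, hs, c, hc, hse⟩ := hcov x₀ hx₀
  have hfs : f s = f x₀ := by
    have h1 : f c = 1 := hc
    rw [hse, map_mul, h1, mul_one]
  have hconj : ∀ i : ℤ, f g₀ * f x₀ ^ i * (f g₀)⁻¹ = f x₀ ^ (-i) := by
    intro i
    rw [← conj_zpow, hinv, inv_zpow, zpow_neg]
  have hcjP : cj g₀ T ≤ P₀ := by
    intro w hw
    rw [mem_cj] at hw
    have h1 : f (g₀⁻¹ * w * g₀) ∈ Subgroup.zpowers (f x₀) := hT.le hw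
    obtain ⟨i, hi⟩ := Subgroup.mem_zpowers_iff.1 h1
    show f w ∈ Subgroup.zpowers (f x₀)
    have e : f w = f g₀ * f (g₀⁻¹ * w * g₀) * (f g₀)⁻¹ := by
      simp [mul_assoc]
    rw [e, ← hi, hconj]
    exact Subgroup.zpow_mem_zpowers _ _
  obtain ⟨z, hz, hzT⟩ := hT.conj hcjP (isPGroup_cj _ hT.isP)
  obtain ⟨s', hs', c₂, hc₂, rfl⟩ := hcov z hz
  set g₁ := c₂ * g₀ with hg₁
  have hg₁T : g₁ ∈ NN T := by
    apply mem_NN_of_cj_le
    rw [cj_mul] at hzT
    rw [hg₁, cj_mul]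
    rw [cj_le_iff, cj_eq_of_mem (T.inv_mem hs')] at hzT
    exact hzT
  have hfg₁ : f g₁ = f g₀ := by
    have h1 : f c₂ = 1 := hc₂
    rw [hg₁, map_mul, h1, one_mul]
  have hn : orderOf g₁ ≠ 0 := (orderOf_pos g₁).ne'
  obtain ⟨e, m, hm, hnm⟩ := Nat.exists_eq_two_pow_mul_odd hn
  set t := g₁ ^ m with ht
  have ht2 : t ^ 2 ^ e = 1 := by
    rw [ht, ← pow_mul, mul_comm, ← hnm, pow_orderOf_eq_one]
  have htT : t ∈ NN T := Subgroup.pow_mem _ hg₁T _
  have hft : f t * f x₀ * (f t)⁻¹ = (f x₀)⁻¹ := by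
    rw [ht, map_pow, hfg₁]
    exact conj_pow_odd hinv hm
  -- the fibre
  let Fib : Type u := {w : X // w ∈ T ∧ f w = f x₀}
  let φ : Equiv.Perm Fib :=
    { toFun := fun w => ⟨(t * w.1 * t⁻¹)⁻¹, by
        refine ⟨T.inv_mem ((mem_NN.1 htT _).1 w.2.1), ?_⟩
        simp only [map_inv, map_mul, w.2.2]
        rw [hft, inv_inv]⟩
      invFun := fun w => ⟨t⁻¹ * (w.1)⁻¹ * t, by
        refine ⟨?_, ?_⟩
        · have := (mem_NN.1 (Subgroup.inv_mem _ htT) _).1 (T.inv_mem w.2.1)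
          simpa using this
        · simp only [map_inv, map_mul, w.2.2]
          rw [← hft]
          group⟩
      left_inv := fun w => by
        apply Subtype.ext
        simp only [mul_inv_rev, inv_inv]
        group
      right_inv := fun w => by
        apply Subtype.ext
        simp only [mul_inv_rev, inv_inv]
        group }
  have hφ2 : ∀ (j : ℕ) (w : Fib), ((φ ^ (2 * j)) w).1 = t ^ (2 * j) * w.1 * (t ^ (2 * j))⁻¹ := by
    intro j
    induction j with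
    | zero => intro w; simp
    | succ j ih =>
      intro w
      have e1 : φ ^ (2 * (j + 1)) = φ ^ (2 * j) * (φ * φ) := by
        rw [show 2 * (j + 1) = 2 * j + 2 by ring, pow_add, pow_two]
      rw [e1, Equiv.Perm.mul_apply, Equiv.Perm.mul_apply, ih]
      have e2 : (φ (φ w)).1 = t * (t * w.1 * t⁻¹) * t⁻¹ := by
        show (t * ((t * w.1 * t⁻¹)⁻¹) * t⁻¹)⁻¹ = _
        simp only [mul_inv_rev, inv_inv, mul_assoc]
      rw [e2, show 2 * (j + 1) = 2 * j + 2 by ring, pow_add, pow_two]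
      group
  have hσ : φ ^ 2 ^ (e + 1) = 1 := by
    apply Equiv.ext
    intro w
    apply Subtype.ext
    have e1 : 2 ^ (e + 1) = 2 * 2 ^ e := by rw [pow_succ]; ring
    rw [e1, hφ2]
    have e2 : t ^ (2 * 2 ^ e) = 1 := by
      rw [mul_comm, pow_mul, ht2, one_pow]
    rw [e2]
    simp
  let ebij : Fib ≃ ↥(T ⊓ f.ker) :=
    { toFun := fun w => ⟨s⁻¹ * w.1, T.mul_mem (T.inv_mem hs) w.2.1, by
        show f (s⁻¹ * w.1) = 1
        rw [map_mul, map_inv, hfs, w.2.2]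
        simp⟩
      invFun := fun u => ⟨s * u.1, T.mul_mem hs u.2.1, by
        have h1 : f u.1 = 1 := u.2.2
        rw [map_mul, h1, mul_one, hfs]⟩
      left_inv := fun w => by
        apply Subtype.ext
        simp
      right_inv := fun u => by
        apply Subtype.ext
        simp }
  letI : Fintype Fib := Fintype.ofFinite Fib
  have hcard : ¬ 2 ∣ Fintype.card Fib := by
    rw [← Nat.card_eq_fintype_card, Nat.card_congr ebij]
    have hTK : IsPGroup p ↥(T ⊓ f.ker) := hT.isP.to_le inf_le_left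
    obtain ⟨j, hj⟩ := (IsPGroup.iff_card (p := p)).1 hTK
    rw [hj]
    intro h2
    have h3 := (Nat.prime_two.dvd_of_dvd_pow h2)
    exact hp ((Nat.prime_dvd_prime_iff_eq Nat.prime_two Fact.out).1 h3).symm
  obtain ⟨i, hi⟩ := Equiv.Perm.exists_fixed_point_of_prime (p := 2) (n := e + 1) hcard hσ
  have hi' : (t * i.1 * t⁻¹)⁻¹ = i.1 := congrArg Subtype.val hi
  refine hX i.1 t ?_ ?_ ?_
  · obtain ⟨l, hl⟩ := hT.isP ⟨i.1, i.2.1⟩
    exact ⟨l, by simpa [Subtype.ext_iff] using hl⟩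
  · intro h0
    apply hy1
    rw [← i.2.2, h0, map_one]
  · rw [inv_eq_iff_eq_inv.1 hi']

/-- The subgroup form of the lifting: an element of `K` inverted modulo a normal subgroup. -/
theorem not_invFreeS_of_section {G : Type u} [Group G] [Finite G] (hp : p ≠ 2) (K M : Subgroup G)
    [hM : M.Normal] {x n : G} (hx : x ∈ K) (hn : n ∈ K) (hxp : ∃ k : ℕ, x ^ p ^ k ∈ M) (hxM : x ∉ M)
    (hinv : (n * x * n⁻¹) * x ∈ M) : ¬ InvFreeS p K := by
  intro hK
  let π : G →* G ⧸ M := QuotientGroup.mk' M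
  have hs : Function.Surjective (π.subgroupMap K) := π.subgroupMap_surjective K
  have h1 := InvFree.of_surjective hp (invFree_coe_iff.2 hK) (π.subgroupMap K) hs
  refine h1 (π.subgroupMap K ⟨x, hx⟩) (π.subgroupMap K ⟨n, hn⟩) ?_ ?_ ?_
  · obtain ⟨k, hk⟩ := hxp
    refine ⟨k, ?_⟩
    apply Subtype.ext
    show π x ^ p ^ k = 1
    rw [← map_pow]
    exact (QuotientGroup.eq_one_iff _).2 hk
  · intro h0
    apply hxM
    have h2 : π x = 1 := congrArg Subtype.val h0
    exact (QuotientGroup.eq_one_iff _).1 h2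
  · apply Subtype.ext
    show π n * π x * (π n)⁻¹ = (π x)⁻¹
    have h2 : π (n * x * n⁻¹ * x) = 1 := (QuotientGroup.eq_one_iff _).2 hinv
    rw [map_mul, map_mul, map_mul, map_inv] at h2
    exact eq_inv_of_mul_eq_one_left h2

end lifting

end Cfsg.Agent.Lib.ZJ.InvFree
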